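import Mathlib
import Cfsg.Agent.H900.Four.Sub
import Cfsg.Agent.H84.SR.EvenFinal
import Cfsg.Agent.FooteOrth.Spin
import Cfsg.Agent.ClassicalGeometry.TwoFamilies
import Cfsg.Agent.H146.Inv4.Base

/-!
# S4171 (four involutions), orthogonal groups, `q` even

* `exists_fix` : an involution in dimension `2 n`, `n` odd, fixes a nonsingular vector;
* `i4_omega_even` : `Ω(Q)` in dimension `2 n`, `n` odd.
-/

set_option autoImplicit false

namespace Cfsg.Agent.H900.Four

open QuadraticMap Module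
open Cfsg.Agent.LieClassical.OrthCore Cfsg.Agent.H160.QDisc

section

variable {F V : Type*} [Field F] [AddCommGroup V] [Module F V] [FiniteDimensional F V] {Q : QuadraticForm F V}

/-- an involution in dimension `2 n`, `n` odd, fixes a nonsingular vector -/
theorem exists_fix (h2 : (2 : F) = 0) (hQ : Nondeg Q) {n : ℕ} (hn : finrank F V = 2 * n) (ho : Odd n)
    {s : V ≃ₗ[F] V} (hs : s ∈ O Q) (hss : s * s = 1) : ∃ w, Q w ≠ 0 ∧ s w = w := by
  by_contra hcon
  have hcon' : ∀ w, s w = w → Q w = 0 := by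
    intro w hw
    by_contra h
    exact hcon ⟨w, h, hw⟩
  have hs' : ∀ x, s (s x) = x := fun x => congrArg (fun g : V ≃ₗ[F] V => g x) hss
  let D : V →ₗ[F] V := (s : V →ₗ[F] V) - LinearMap.id
  have hD : ∀ x, D x = s x - x := fun x => rfl
  have hfix : ∀ x, s (D x) = D x := by
    intro x
    rw [hD, map_sub, hs']
    have : x + x = 0 := by rw [← two_smul F x, h2, zero_smul]
    have h3 : s x + s x = 0 := by rw [← two_smul F (s x), h2, zero_smul]
    have e : x - s x - (s x - x) = (x + x) - (s x + s x) := by abel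
    rw [this, h3, sub_zero, sub_eq_zero] at e
    exact e
  have hker : ∀ x, x ∈ LinearMap.ker D ↔ s x = x := by
    intro x
    rw [LinearMap.mem_ker, hD, sub_eq_zero]
  have hrk : LinearMap.range D ≤ LinearMap.ker D := by
    rintro _ ⟨x, rfl⟩
    exact (hker _).2 (hfix x)
  have hA : LinearMap.BilinForm.IsAlt ((polarBilin Q).comp D : LinearMap.BilinForm F V) := by
    intro x
    show polar Q (D x) x = 0
    have e : D x + x = s x := by rw [hD]; abel
    rw [polar, e, hcon' _ (hfix x), mem_O.1 hs]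
    ring
  obtain ⟨m, hm⟩ := Cfsg.Agent.ClassicalGeometry.TwoFamilies.exists_finrank_eq_ker_add
    ((polarBilin Q).comp D : LinearMap.BilinForm F V) hA
  have hk : LinearMap.ker ((polarBilin Q).comp D : LinearMap.BilinForm F V) = LinearMap.ker D := by
    ext x
    rw [LinearMap.mem_ker, LinearMap.mem_ker]
    constructor
    · intro h
      refine hQ _ fun y => ?_
      exact congrArg (fun f : V →ₗ[F] F => f y) h
    · intro h
      ext y
      show polar Q (D x) y = 0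
      rw [h, polar_zero_left]
  rw [hk] at hm
  have h3 := LinearMap.finrank_range_add_finrank_ker D
  have h4 := Submodule.finrank_mono hrk
  have h5 : LinearMap.ker D ≤ LinearMap.BilinForm.orthogonal (polarBilin Q) (LinearMap.ker D) := by
    intro x hx y hy
    show polar Q y x = 0
    have hxy : s (y + x) = y + x := by rw [map_add, (hker x).1 hx, (hker y).1 hy]
    rw [polar, hcon' _ hxy, hcon' _ ((hker x).1 hx), hcon' _ ((hker y).1 hy), sub_zero, sub_zero]
  have h6 := Submodule.finrank_mono h5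
  rw [LinearMap.BilinForm.finrank_orthogonal (nondeg_bilin hQ)] at h6
  obtain ⟨k, hk'⟩ := ho
  omega

end

section Matrix

open Cfsg.Agent.LieClassical.OrthFinite Cfsg.Agent.LieClassical.OrthForms Cfsg.Agent.ClassicalGeometry.Reflection
open Cfsg.Agent.H146.Inv4

variable {F : Type*} [Field F] [Finite F] [CharP F 2] {ι : Type} [Fintype ι] [DecidableEq ι]
  (Q : QuadraticForm F (ι → F))

theorem i4_omega_even (hQ : Nondeg Q) {n : ℕ} (hι : Fintype.card ι = 2 * n) (hn : 3 ≤ n) (ho : Odd n) :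
    I4 (commutator (Cfsg.isometryGroup F ⇑Q)) := by
  have h2 : (2 : F) = 0 := CharTwo.two_eq_zero
  have hnd := Cfsg.Agent.H646.FSOmega.nondegenerate Q hQ
  have h4 : (∃ θ : F, θ ≠ 0 ∧ θ ≠ 1) ∨ Fintype.card ι ≠ 4 := Or.inr (by omega)
  have : Nonempty ι := Fintype.card_pos_iff.1 (by omega)
  have hidx := Cfsg.Agent.ClassicalGeometry.OrthDickson.index_commutator_two Q h2 hnd h4
  have hr := Cfsg.Agent.ClassicalGeometry.OrthDickson.refl_notMem_commutator Q hnd h4
  have hdim : finrank F (ι → F) = 2 * n := by rw [Module.finrank_fintype_fun_eq_card, hι]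
  intro g
  obtain ⟨h, hO, hh, hinv, -⟩ := Cfsg.Agent.H84.SREven.exists_inv' hQ hdim (isometryEquiv Q g).2
  let s1 : Cfsg.isometryGroup F ⇑Q := (isometryEquiv Q).symm ⟨h, hO⟩
  have hs1 : isometryEquiv Q s1 = ⟨h, hO⟩ := (isometryEquiv Q).apply_symm_apply _
  have h1 : s1 * s1 = 1 := by
    apply (isometryEquiv Q).injective
    rw [map_mul, map_one, hs1]
    exact Subtype.ext hh
  have hi : s1 * (g : Cfsg.isometryGroup F ⇑Q) * s1⁻¹ = (g : Cfsg.isometryGroup F ⇑Q)⁻¹ := by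
    apply (isometryEquiv Q).injective
    rw [map_mul, map_mul, map_inv, map_inv, hs1]
    exact Subtype.ext hinv
  have h2' : (s1 * g) * (s1 * g) = 1 := by
    calc (s1 * (g : Cfsg.isometryGroup F ⇑Q)) * (s1 * g) = (s1 * g * s1⁻¹) * (s1 * s1) * g := by group
      _ = 1 := by rw [hi, h1, mul_one, inv_mul_cancel]
  have hgs : (g : Cfsg.isometryGroup F ⇑Q) = s1 * (s1 * g) := by rw [← mul_assoc, h1, one_mul]
  have hmem : s1 ∈ commutator (Cfsg.isometryGroup F ⇑Q) ↔ s1 * g ∈ commutator (Cfsg.isometryGroup F ⇑Q) :=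
    (Subgroup.mul_mem_cancel_right _ g.2).symm
  have fin : (∃ t1 ∈ commutator (Cfsg.isometryGroup F ⇑Q), ∃ t2 ∈ commutator (Cfsg.isometryGroup F ⇑Q),
      ∃ t3 ∈ commutator (Cfsg.isometryGroup F ⇑Q), ∃ t4 ∈ commutator (Cfsg.isometryGroup F ⇑Q), t1 * t1 = 1 ∧
      t2 * t2 = 1 ∧ t3 * t3 = 1 ∧ t4 * t4 = 1 ∧ s1 * (s1 * g) = t1 * t2 * t3 * t4) →
      ∃ t1 t2 t3 t4 : commutator (Cfsg.isometryGroup F ⇑Q), t1 * t1 = 1 ∧ t2 * t2 = 1 ∧ t3 * t3 = 1 ∧ t4 * t4 = 1 ∧
        g = t1 * t2 * t3 * t4 := by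
    rintro ⟨t1, k1, t2, k2, t3, k3, t4, k4, e1, e2, e3, e4, e⟩
    exact ⟨⟨t1, k1⟩, ⟨t2, k2⟩, ⟨t3, k3⟩, ⟨t4, k4⟩, Subtype.ext e1, Subtype.ext e2, Subtype.ext e3, Subtype.ext e4,
      Subtype.ext (hgs.trans e)⟩
  apply fin
  generalize s1 * (g : Cfsg.isometryGroup F ⇑Q) = s2 at h2' hmem
  by_cases hN : s1 ∈ commutator (Cfsg.isometryGroup F ⇑Q)
  · exact ⟨s1, hN, s2, hmem.1 hN, 1, one_mem _, 1, one_mem _, h1, h2', one_mul 1, one_mul 1, by
      rw [mul_one, mul_one]⟩
  have hN2 : s2 ∉ commutator (Cfsg.isometryGroup F ⇑Q) := fun h => hN (hmem.2 h)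
  have hprod : ∀ a b : Cfsg.isometryGroup F ⇑Q, a ∉ commutator (Cfsg.isometryGroup F ⇑Q) →
      b ∉ commutator (Cfsg.isometryGroup F ⇑Q) → a * b ∈ commutator (Cfsg.isometryGroup F ⇑Q) := fun a b ha hb =>
    (Subgroup.mul_mem_iff_of_index_two hidx (a := a) (b := b)).2 ⟨fun h => absurd h ha, fun h => absurd h hb⟩
  have one : ∀ s : Cfsg.isometryGroup F ⇑Q, s * s = 1 → ∃ (w : ι → F) (hw : Q w ≠ 0),
      s * reflIso Q w hw = reflIso Q w hw * s := by
    intro s hs
    have hss : (isometryEquiv Q s : (ι → F) ≃ₗ[F] (ι → F)) * isometryEquiv Q s = 1 := by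
      have := congrArg (fun k => ((isometryEquiv Q k : O Q) : (ι → F) ≃ₗ[F] (ι → F))) hs
      simpa using this
    obtain ⟨w, hw, hsw⟩ := exists_fix h2 hQ hdim ho (isometryEquiv Q s).2 hss
    refine ⟨w, hw, ?_⟩
    have hsw' : Q ((isometryEquiv Q s : (ι → F) ≃ₗ[F] (ι → F)) w) ≠ 0 := by rw [hsw]; exact hw
    have h5 := refl_conj (isometryEquiv Q s).2 hw hsw'
    have h6 : refl Q ((isometryEquiv Q s : (ι → F) ≃ₗ[F] (ι → F)) w) hsw' = refl Q w hw := by congr 1
    rw [h6] at h5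
    have h7 : s * reflIso Q w hw * s⁻¹ = reflIso Q w hw := by
      apply (isometryEquiv Q).injective
      rw [map_mul, map_mul, map_inv, Cfsg.Agent.FooteOrth.isometryEquiv_reflIso]
      exact Subtype.ext h5
    calc s * reflIso Q w hw = (s * reflIso Q w hw * s⁻¹) * s := by group
      _ = reflIso Q w hw * s := by rw [h7]
  obtain ⟨w1, hw1, hc1⟩ := one s1 h1
  obtain ⟨w2, hw2, hc2⟩ := one s2 h2'
  obtain ⟨T0, hT0, hT1, hTd⟩ := exists_T0 hQ (Submodule.span F (Set.range ![w1, w2])) ⊥ bot_le nd_bot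
  have hU : finrank F (Submodule.span F (Set.range ![w1, w2])) ≤ 2 := finrank_range_le_card ![w1, w2]
  rw [finrank_bot] at hTd
  obtain ⟨c, hcT, hc⟩ := exists_value_nd hT0 (by omega) (1 : F)
  have hc0 : Q c ≠ 0 := by rw [hc]; exact one_ne_zero
  have hcomm : ∀ w (hw : Q w ≠ 0), polar Q w c = 0 → reflIso Q c hc0 * reflIso Q w hw = reflIso Q w hw * reflIso Q c hc0 := by
    intro w hw hp
    apply (isometryEquiv Q).injective
    rw [map_mul, map_mul, Cfsg.Agent.FooteOrth.isometryEquiv_reflIso, Cfsg.Agent.FooteOrth.isometryEquiv_reflIso]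
    exact Subtype.ext (refl_comm hc0 hw (by rw [polar_comm]; exact hp))
  exact combine (commutator (Cfsg.isometryGroup F ⇑Q)) (x1 := reflIso Q w1 hw1) (x2 := reflIso Q w2 hw2)
    (x3 := reflIso Q c hc0) h1 h2' (reflIso_mul_self _ _ _) (reflIso_mul_self _ _ _) (reflIso_mul_self _ _ _)
    hc1 hc2 (hcomm w1 hw1 (hT1 c hcT w1 (Submodule.subset_span ⟨0, rfl⟩)))
    (hcomm w2 hw2 (hT1 c hcT w2 (Submodule.subset_span ⟨1, rfl⟩)))
    (hprod _ _ hN (hr w1 hw1)) (hprod _ _ (hr w1 hw1) (hr c hc0)) (hprod _ _ (hr c hc0) (hr w2 hw2))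
    (hprod _ _ (hr w2 hw2) hN2)

end Matrix

end Cfsg.Agent.H900.Four
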